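import Cfsg.Agent.Phan.Ind

/-!
Extending homomorphisms from a point stabiliser, via a simply connected invariant graph.
-/

set_option autoImplicit false

namespace CF.Phan

variable {G H X : Type*} [Group G] [Group H] [MulAction G X]

/-- A triangle in the orbit of a subgroup `L`, up to translation by `Γ`. -/
def Tri (Γ L : Subgroup G) (x₀ x y z : X) : Prop :=
  ∃ g ∈ Γ, ∃ m ∈ L, ∃ m' ∈ L, x = g • x₀ ∧ y = g • m • x₀ ∧ z = g • m' • x₀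

/-- Geometric data for the extension theorem. -/
structure AD (Γ K L : Subgroup G) (x₀ : X) (P : X → Prop) (A : X → X → Prop) (N : G → Prop) :
    Prop where
  hK : ∀ g, g ∈ K ↔ g ∈ Γ ∧ g • x₀ = x₀
  hL : L ≤ Γ
  hP : ∀ x, P x ↔ ∃ g ∈ Γ, g • x₀ = x
  inv : ∀ g ∈ Γ, ∀ x y, A x y → A (g • x) (g • y)
  symm : ∀ x y, A x y → A y x
  dec : ∀ y, P y → A x₀ y → ∃ k ∈ K, ∃ m ∈ L, N m ∧ y = k • m • x₀
  decL : ∀ u ∈ L, A x₀ (u • x₀) → ∃ k ∈ K, k ∈ L ∧ ∃ m ∈ L, N m ∧ u • x₀ = k • m • x₀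
  tri : ∀ y z, P y → P z → A x₀ y → A y z → A x₀ z → Tri Γ L x₀ x₀ y z ∨
    ∃ w, A x₀ w ∧ A y w ∧ A w z ∧ Tri Γ L x₀ y w z ∧ Tri Γ L x₀ x₀ y w ∧ Tri Γ L x₀ x₀ w z
  h3 : ∀ x a a', P x → P a → P a' → ∃ b, P b ∧ A x b ∧ A b a ∧ A b a'
  h4 : ∀ x a b b', P x → P b → A x b → A b a → A x b' → ¬ A x a → ¬ A b' b →
    ∃ c, P c ∧ A x c ∧ A c a ∧ A c b ∧ A c b'

variable {Γ K L : Subgroup G} {x₀ : X} {P : X → Prop} {A : X → X → Prop} {N : G → Prop}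
  (D : AD Γ K L x₀ P A N)
include D

theorem AD.two {g : G} (hg : g ∈ Γ) :
    ∃ u ∈ Γ, ∃ u' ∈ Γ, A x₀ (u • x₀) ∧ A x₀ (u' • x₀) ∧ g = u * u' := by
  have p := fun g hg => (D.hP _).2 ⟨g, hg, rfl⟩
  obtain ⟨b, pb, b1, b2, -⟩ := D.h3 _ _ _ (p 1 (one_mem _)) (p g hg) (p g hg)
  obtain ⟨u, hu, rfl⟩ := (D.hP _).1 pb
  exact ⟨u, hu, _, mul_mem (inv_mem hu) hg, by simpa using b1,
    by simpa [mul_smul] using D.inv _ (inv_mem hu) _ _ b2, by simp⟩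

theorem AD.dec' {u : G} (hu : u ∈ Γ) (e : A x₀ (u • x₀)) :
    ∃ k ∈ K, ∃ m ∈ L, N m ∧ ∃ k' ∈ K, u = k * m * k' := by
  obtain ⟨k, hk, m, hm, n, r⟩ := D.dec _ ((D.hP _).2 ⟨u, hu, rfl⟩) e
  exact ⟨k, hk, m, hm, n, (k * m)⁻¹ * u, (D.hK _).2 ⟨mul_mem (inv_mem (mul_mem ((D.hK _).1 hk).1
    (D.hL hm))) hu, by rw [mul_smul, inv_smul_eq_iff, mul_smul, r]⟩, by group⟩

theorem AD.gen {Q : Subgroup G} (h1 : K ≤ Q) (h2 : L ≤ Q) : Γ ≤ Q := fun g hg => by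
  obtain ⟨u, hu, u', hu', a, a', rfl⟩ := D.two hg
  obtain ⟨k, hk, m, hm, -, k', hk', rfl⟩ := D.dec' hu a
  obtain ⟨l, hl, n, hn, -, l', hl', rfl⟩ := D.dec' hu' a'
  exact mul_mem (mul_mem (mul_mem (h1 hk) (h2 hm)) (h1 hk'))
    (mul_mem (mul_mem (h1 hl) (h2 hn)) (h1 hl'))

theorem AD.ext {f ψ : G → H} (hf : HomOn f K) (hψ : HomOn ψ L)
    (ag : ∀ t ∈ K, t ∈ L → f t = ψ t)
    (wd : ∀ k ∈ K, ∀ m ∈ L, ∀ m' ∈ L, N m → N m' → k • m • x₀ = m' • x₀ →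
      k * m = m * k ∧ f k * ψ m = ψ m * f k) :
    ∃ Φ : G → H, HomOn Φ Γ ∧ (∀ k ∈ K, Φ k = f k) ∧ ∀ m ∈ L, A x₀ (m • x₀) → Φ m = ψ m := by
  let R : G → H → Prop := fun u x =>
    ∃ k ∈ K, ∃ m ∈ L, N m ∧ ∃ k' ∈ K, u = k * m * k' ∧ x = f k * ψ m * f k'
  have r2 : ∀ u x, ∀ k ∈ K, ∀ k' ∈ K, R u x → R (k * u * k') (f k * x * f k') := by
    rintro _ _ l hl l' hl' ⟨k, hk, m, hm, n, k', hk', rfl, rfl⟩
    exact ⟨_, mul_mem hl hk, m, hm, n, _, mul_mem hk' hl', by group,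
      by rw [hf _ hl _ hk, hf _ hk' _ hl']; group⟩
  obtain ⟨c, τ, hc⟩ := exists_coc Γ x₀ R (fun g hg e => (D.hK g).2 ⟨hg, e⟩) hf (by
    rintro _ _ _ ⟨k, hk, m, hm, n, k', hk', rfl, rfl⟩ ⟨l, hl, m', hm', n', l', hl', e, rfl⟩
    have a := mul_mem (inv_mem hl) hk
    have e' : (l⁻¹ * k) • m • x₀ = m' • x₀ := by
      have := congrArg (· • x₀) e
      simp only [mul_smul, ((D.hK _).1 hk').2, ((D.hK _).1 hl').2] at this
      rw [mul_smul, this, inv_smul_smul]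
    obtain ⟨w1, w2⟩ := wd _ a m hm m' hm' n n' e'
    have b := mul_mem (inv_mem hm') hm
    have b' : m'⁻¹ * m ∈ K := (D.hK _).2 ⟨D.hL b, by
      rw [mul_smul, inv_smul_eq_iff, ← e', ← mul_smul, w1, mul_smul, ((D.hK _).1 a).2]⟩
    rw [show l' = m'⁻¹ * m * (l⁻¹ * k * k') by
      rw [mul_assoc, ← mul_assoc m, ← w1, eq_inv_mul_iff_mul_eq, mul_assoc, mul_assoc,
        eq_inv_mul_iff_mul_eq, ← mul_assoc, ← e, mul_assoc], hf _ b' _ (mul_mem a hk'), ag _ b' b,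
      hf _ a _ hk', hψ _ (inv_mem hm') _ hm, hψ.inv hm', mul_assoc (f l), ← mul_assoc (ψ m'),
      mul_inv_cancel_left, ← mul_assoc (ψ m), ← w2, hf _ (inv_mem hl) _ hk, hf.inv hl]
    group) r2
  have rψ : ∀ u ∈ L, A x₀ (u • x₀) → R u (ψ u) := fun u hu e => by
    obtain ⟨k, hk, hk', m, hm, n, r⟩ := D.decL u hu e
    have a := mul_mem (inv_mem (mul_mem hk' hm)) hu
    have a' : (k * m)⁻¹ * u ∈ K :=
      (D.hK _).2 ⟨D.hL a, by rw [mul_smul, inv_smul_eq_iff, mul_smul, r]⟩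
    exact ⟨k, hk, m, hm, n, _, a', by group, by
      rw [ag _ hk hk', ag _ a' a, ← hψ _ hk' _ hm, ← hψ _ (mul_mem hk' hm) _ a,
        mul_inv_cancel_left]⟩
  have t1 : ∀ g ∈ Γ, ∀ x y z, Tri Γ L x₀ x y z → A x y → A y z → A x z →
      c (g • x) (g • y) * c (g • y) (g • z) = c (g • x) (g • z) := by
    rintro g₀ hg₀ _ _ _ ⟨g, hg, m, hm, m', hm', rfl, rfl, rfl⟩ a1 a2 a3
    have i := D.inv _ (inv_mem hg)
    have a := mul_mem hg₀ hg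
    have b := mul_mem (inv_mem hm) hm'
    simp only [← mul_smul, ← mul_assoc]
    rw [hc _ a _ (mul_mem a (D.hL hm)) _ ((inv_mul_cancel_left _ m).symm ▸ rψ m hm
        (by simpa using i _ _ a1)),
      hc _ a _ (mul_mem a (D.hL hm')) _ ((inv_mul_cancel_left _ m').symm ▸ rψ m' hm'
        (by simpa using i _ _ a3)),
      hc _ (mul_mem a (D.hL hm)) _ (mul_mem a (D.hL hm')) _ (by
        simpa [mul_assoc] using rψ _ b (by
          simpa [mul_smul] using D.inv _ (inv_mem (D.hL hm)) _ _ (i _ _ a2))),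
      hψ _ (inv_mem hm) _ hm', hψ.inv hm]
    group
  have t2 : ∀ x y z, P x → P y → P z → A x y → A y z → A x z → c x y * c y z = c x z := by
    intro x y z px py pz a1 a2 a3
    obtain ⟨g, hg, rfl⟩ := (D.hP _).1 px
    have p : ∀ y, P y → P (g⁻¹ • y) := fun y py => by
      obtain ⟨u, hu, rfl⟩ := (D.hP _).1 py
      exact (D.hP _).2 ⟨_, mul_mem (inv_mem hg) hu, mul_smul _ _ _⟩
    have i := D.inv _ (inv_mem hg)
    replace a1 := i _ _ a1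
    replace a2 := i _ _ a2
    replace a3 := i _ _ a3
    rw [inv_smul_smul] at a1 a3
    rw [← smul_inv_smul g y, ← smul_inv_smul g z]
    rcases D.tri _ _ (p y py) (p z pz) a1 a2 a3 with t | ⟨w, b1, b2, b3, s1, s2, s3⟩
    · exact t1 g hg _ _ _ t a1 a2 a3
    rw [← t1 g hg _ _ _ s1 b2 b3 a2, ← mul_assoc, t1 g hg _ _ _ s2 a1 b2 b1,
      t1 g hg _ _ _ s3 b1 b3 a3]
  have p₀ : P x₀ := (D.hP _).2 ⟨1, one_mem _, one_smul _ _⟩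
  have t3 : ∀ a b b', P a → P b → P b' → A x₀ b → A b a → A x₀ b' → A b' a →
      c x₀ b * c b a = c x₀ b' * c b' a := by
    have t : ∀ a b b', P a → P b → P b' → A x₀ b → A b a → A x₀ b' → A b' a → A b' b →
        c x₀ b * c b a = c x₀ b' * c b' a := fun a b b' pa pb pb' a1 a2 a3 a4 e => by
      rw [← t2 _ _ _ p₀ pb' pb a3 e a1, mul_assoc, t2 _ _ _ pb' pb pa e a2 a4]
    intro a b b' pa pb pb' a1 a2 a3 a4
    by_cases e : A x₀ a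
    · rw [t2 _ _ _ p₀ pb pa a1 a2 e, t2 _ _ _ p₀ pb' pa a3 a4 e]
    by_cases e' : A b' b
    · exact t a b b' pa pb pb' a1 a2 a3 a4 e'
    obtain ⟨d, pd, d1, d2, d3, d4⟩ := D.h4 _ _ _ _ p₀ pb a1 a2 a3 e e'
    rw [t a b d pa pb pd a1 a2 d1 d2 d3, t a b' d pa pb' pd a3 a4 d1 d2 d4]
  have : ∀ a, ∃ b, P a → P b ∧ A x₀ b ∧ A b a := fun a => by
    by_cases pa : P a
    · obtain ⟨b, pb, b1, b2, -⟩ := D.h3 _ _ _ p₀ pa pa
      exact ⟨b, fun _ => ⟨pb, b1, b2⟩⟩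
    · exact ⟨a, fun e => absurd e pa⟩
  choose β hβ using this
  let Φ : G → H := fun g => c x₀ (β (g • x₀)) * c (β (g • x₀)) (g • x₀) * τ g
  have key : ∀ g ∈ Γ, ∀ u ∈ Γ, ∀ x, R u x → A x₀ (u • x₀) → Φ (g * u) = Φ g * x := by
    intro g hg u hu x hx e
    have p1 := (D.hP _).2 ⟨g, hg, rfl⟩
    have p2 := (D.hP _).2 ⟨_, mul_mem hg hu, rfl⟩
    obtain ⟨b, pb, b1, b2, b3⟩ := D.h3 _ _ _ p₀ p1 p2
    simp only [Φ]
    rw [t3 _ _ b p1 (hβ _ p1).1 pb (hβ _ p1).2.1 (hβ _ p1).2.2 b1 b2,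
      t3 _ _ b p2 (hβ _ p2).1 pb (hβ _ p2).2.1 (hβ _ p2).2.2 b1 b3,
      ← t2 _ _ _ pb p1 p2 b2 (by simpa [mul_smul] using D.inv g hg _ _ e) b3,
      hc g hg _ (mul_mem hg hu) x (by simpa using hx)]
    group
  have key' : ∀ u ∈ Γ, A x₀ (u • x₀) → ∃ x, R u x := fun u hu e => by
    obtain ⟨k, hk, m, hm, n, k', hk', rfl⟩ := D.dec' hu e
    exact ⟨_, k, hk, m, hm, n, k', hk', rfl, rfl⟩
  have k1 : ∀ u ∈ Γ, ∀ x, R u x → A x₀ (u • x₀) → (Φ 1)⁻¹ * Φ u = x := fun u hu x hx e => by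
    have := key 1 (one_mem _) u hu x hx e
    rw [one_mul] at this
    simp [this]
  have hom : HomOn (fun g => (Φ 1)⁻¹ * Φ g) Γ := fun g hg g' hg' => by
    obtain ⟨u, u1, u', u2, u3, u4, rfl⟩ := D.two hg'
    obtain ⟨x, hx⟩ := key' u u1 u3
    obtain ⟨x', hx'⟩ := key' u' u2 u4
    simp only [← mul_assoc g, key _ (mul_mem hg u1) u' u2 x' hx' u4, key g hg u u1 x hx u3,
      key u u1 u' u2 x' hx' u4, ← mul_assoc]
    rw [mul_assoc _ (Φ 1)⁻¹, k1 u u1 x hx u3]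
  refine ⟨_, hom, fun k hk => ?_, fun m hm e => k1 m (D.hL hm) _ (rψ m hm e) e⟩
  obtain ⟨u, u1, -, -, u3, -⟩ := D.two (one_mem Γ)
  obtain ⟨x, hx⟩ := key' u u1 u3
  have a := (D.hK _).1 hk
  have := hom u u1 k a.1
  simp only [k1 u u1 x hx u3, k1 _ (mul_mem u1 a.1) _
    (by simpa [hf.one] using r2 u x 1 (one_mem _) k hk hx) (by rwa [mul_smul, a.2])] at this
  exact (mul_left_cancel this).symm

end CF.Phan
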