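import Cfsg.Agent.Phan.Am
import Cfsg.Agent.Geom.SpGen

/-!
Pointwise stabilisers of basis vectors in the symplectic group.
-/

set_option autoImplicit false

namespace CF.Phan.Sp

open CF.Geom Matrix Sum

variable {F : Type*} [Field F] {n : ℕ}

theorem np2 {V : Type*} [AddCommGroup V] [Module F V] {U : Submodule F V} {α β : V →ₗ[F] F}
    (h1 : ∃ u ∈ U, α u ≠ 0) (h2 : ∃ u ∈ U, β u ≠ 0) : ∃ u ∈ U, α u ≠ 0 ∧ β u ≠ 0 := by
  obtain ⟨u, hu, a⟩ := h1
  obtain ⟨v, hv, b⟩ := h2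
  by_cases c : β u = 0
  · by_cases d : α v = 0
    · exact ⟨_, add_mem hu hv, by simp [a, d], by simp [b, c]⟩
    exact ⟨v, hv, d, b⟩
  exact ⟨u, hu, a, c⟩

theorem np3 (hF : ∃ a : F, a ≠ 0 ∧ a ≠ 1) {V : Type*} [AddCommGroup V] [Module F V]
    {U : Submodule F V} {α β γ : V →ₗ[F] F} (h1 : ∃ u ∈ U, α u ≠ 0) (h2 : ∃ u ∈ U, β u ≠ 0)
    (h3 : ∃ u ∈ U, γ u ≠ 0) : ∃ u ∈ U, α u ≠ 0 ∧ β u ≠ 0 ∧ γ u ≠ 0 := by
  obtain ⟨t, t0, t1⟩ := hF
  obtain ⟨u, hu, a, b⟩ := np2 h1 h2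
  obtain ⟨w, hw, c⟩ := h3
  by_contra! r
  have d := r u hu a b
  have r1 := fun x y => c (r w hw x y)
  have r2 := r _ (add_mem hu hw)
  have r3 := r _ (add_mem hu (U.smul_mem t hw))
  simp only [map_add, map_smul, smul_eq_mul, d, zero_add, mul_eq_zero, t0, c, imp_false,
    or_self, not_not] at r2 r3
  have k : ∀ x y : F, x ≠ 0 → x + y = 0 → x + t * y ≠ 0 := fun x y h1 h2 h3 =>
    h1 (mul_left_cancel₀ (sub_ne_zero.2 t1) (by linear_combination t * h2 - h3))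
  by_cases e : α u + α w = 0
  · have := r3 (k _ _ a e)
    exact r1 (fun z => a (by simpa [z] using e)) fun z => b (by simpa [z] using this)
  have e' := r2 e
  by_cases z : α w = 0
  · exact k _ _ b e' (r3 (by simpa [z] using a))
  exact r1 z fun z => b (by simpa [z] using e')

theorem avoid2 (hF : ∃ a : F, a ≠ 0 ∧ a ≠ 1) (p r : F) : ∃ s, s ≠ p ∧ s ≠ r := by
  obtain ⟨t, t0, t1⟩ := hF
  by_contra! h
  by_cases a : 0 = p
  · exact t1 ((h t (a ▸ t0)).trans (h 1 (a ▸ one_ne_zero)).symm)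
  by_cases b : 1 = p
  · exact t0 ((h t (b ▸ t1)).trans (h 0 a).symm)
  exact zero_ne_one ((h 0 a).trans (h 1 b).symm)

/-- The symplectic group. -/
abbrev SP (n : ℕ) (F : Type*) [Field F] := ↥(symplecticGroup (Fin n) F)

/-- Basis vectors. -/
abbrev bv (F : Type*) [Field F] (j : Fin n ⊕ Fin n) : Fin n ⊕ Fin n → F := Pi.single j 1

/-- The index of a basis vector. -/
def ix (j : Fin n ⊕ Fin n) : ℕ := j.elim Fin.val Fin.val

@[simp] theorem ix_inl (i : Fin n) : ix (inl i) = i := rfl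
@[simp] theorem ix_inr (i : Fin n) : ix (inr i) = i := rfl
@[simp] theorem ix_swap (j : Fin n ⊕ Fin n) : ix j.swap = ix j := by cases j <;> rfl

/-- Pointwise stabiliser of some basis vectors. -/
def Fx (F : Type*) [Field F] (p : Fin n ⊕ Fin n → Prop) : Subgroup (SP n F) where
  carrier := {g | ∀ j, p j → g • bv F j = bv F j}
  mul_mem' ha hb k hk := by rw [mul_smul, hb k hk, ha k hk]
  one_mem' k _ := one_smul _ _
  inv_mem' ha k hk := by rw [inv_smul_eq_iff, ha k hk]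

/-- Vectors vanishing at some coordinates. -/
def Vn (F : Type*) [Field F] (p : Fin n ⊕ Fin n → Prop) : Submodule F (Fin n ⊕ Fin n → F) where
  carrier := {v | ∀ j, p j → v j = 0}
  add_mem' ha hb j hj := by simp [ha j hj, hb j hj]
  zero_mem' _ _ := rfl
  smul_mem' c v hv j hj := by simp [hv j hj]

local notation "ω" => sympBilin n F

variable {p r : Fin n ⊕ Fin n → Prop} {g g' : SP n F} {x y : Fin n ⊕ Fin n → F}

theorem Fx_mono (h : ∀ j, r j → p j) : Fx F p ≤ Fx F r := fun _ hg j hj => hg j (h j hj)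

theorem smul_add' (g : SP n F) (x y : Fin n ⊕ Fin n → F) : g • (x + y) = g • x + g • y :=
  mulVec_add _ _ _

theorem smul_sub' (g : SP n F) (x y : Fin n ⊕ Fin n → F) : g • (x - y) = g • x - g • y :=
  mulVec_sub _ _ _

theorem smul_smul' (g : SP n F) (c : F) (x : Fin n ⊕ Fin n → F) : g • c • x = c • g • x :=
  mulVec_smul _ _ _

theorem om_smul (g : SP n F) (x y : Fin n ⊕ Fin n → F) : ω (g • x) (g • y) = ω x y := by
  simp only [sympBilin_apply]; exact mem_symplecticGroup_iff.1 g.2 x y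

theorem om_comm (x y : Fin n ⊕ Fin n → F) : ω x y = -ω y x :=
  ((sympBilin_isAlt n).neg_eq y x).symm

@[simp] theorem om_self (x : Fin n ⊕ Fin n → F) : ω x x = 0 := sympBilin_isAlt n x

@[simp] theorem om_inl (i : Fin n) (x : Fin n ⊕ Fin n → F) : ω (bv F (inl i)) x = -x (inr i) := by
  simp [sympBilin_apply, sympForm_eq_sum, Pi.single_apply]

@[simp] theorem om_inr (i : Fin n) (x : Fin n ⊕ Fin n → F) : ω (bv F (inr i)) x = x (inl i) := by
  simp [sympBilin_apply, sympForm_eq_sum, Pi.single_apply]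

theorem om_eq (j : Fin n ⊕ Fin n) : ω (bv F j) x = ω (bv F j) y ↔ x j.swap = y j.swap := by
  cases j <;> simp

theorem om_ne (j : Fin n ⊕ Fin n) : ω x (bv F j) ≠ 0 ↔ x j.swap ≠ 0 := by
  rw [om_comm]; cases j <;> simp

theorem coord (hg : g ∈ Fx F p) {j : Fin n ⊕ Fin n} (hj : p j.swap) (x : Fin n ⊕ Fin n → F) :
    (g • x) j = x j := by
  rw [← j.swap_swap, ← om_eq, ← om_smul g _ x, hg _ hj]

theorem fix (hg : g ∈ Fx F p) (hx : ∀ j, ¬ p j → x j = 0) : g • x = x := by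
  rw [← Finset.univ_sum_single x]
  refine (mulVec_sum _ _ _).trans (Finset.sum_congr rfl fun j _ => ?_)
  by_cases e : p j
  · rw [show Pi.single j (x j) = x j • bv F j by rw [← Pi.single_smul]; simp]
    exact (smul_smul' g _ _).trans (by rw [hg j e])
  simp [hx j e]

theorem comm (hg : g ∈ Fx F p) (hg' : g' ∈ Fx F r) (h : ∀ j, p j.swap ∨ r j) :
    g * g' = g' * g := by
  refine Subtype.ext (toLin'.injective (LinearMap.ext fun x => ?_))
  have a := fix hg (x := g' • x - x) fun j hj => by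
    rw [Pi.sub_apply, coord hg' ((h j.swap).resolve_left (by simpa using hj)), sub_self]
  have b := fix hg' (x := g • x - x) fun j hj => by
    rw [Pi.sub_apply, coord hg ((h j).resolve_right hj), sub_self]
  rw [smul_sub'] at a b
  show (g * g') • x = (g' * g) • x
  rw [mul_smul, mul_smul, eq_add_of_sub_eq a, eq_add_of_sub_eq b]
  abel

theorem mv (e : ω x y ≠ 0) (h : ∀ j, p j → x j.swap = y j.swap) : ∃ g ∈ Fx F p, g • x = y := by
  refine ⟨⟨_, sympTransvection_mem n (y - x) (ω x y)⁻¹⟩, fun j hj => ?_, ?_⟩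
  · refine (sympTransvection_mulVec _ _ _ _).trans ?_
    rw [← sympBilin_apply, map_sub, (om_eq j).2 (h j hj)]; simp
  · refine (sympTransvection_mulVec _ _ _ _).trans ?_
    rw [← sympBilin_apply, map_sub, om_self, sub_zero, inv_mul_cancel₀ e]; simp

theorem mv2 (i : Fin n ⊕ Fin n) (hi : p i) (hi' : ¬ p i.swap) (e : x i.swap ≠ 0)
    (h : ∀ j, p j → x j.swap = y j.swap) : ∃ g ∈ Fx F p, g • x = y := by
  by_cases a : ω x y = 0
  · have k : ∀ j, p j → x j.swap = (x + bv F i) j.swap := fun j hj => by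
      rw [Pi.add_apply, bv, Pi.single_eq_of_ne (by rintro rfl; exact hi' (by simpa)), add_zero]
    obtain ⟨g, hg, e1⟩ := mv (by simpa using (om_ne i).2 e) k
    obtain ⟨g', hg', e2⟩ := mv (x := x + bv F i) (y := y) (by
      rw [map_add, LinearMap.add_apply, a, zero_add, om_comm, neg_ne_zero, om_ne, ← h i hi]
      exact e) fun j hj => (k j hj).symm.trans (h j hj)
    exact ⟨_, mul_mem hg' hg, by rw [mul_smul, e1, e2]⟩
  exact mv a h

theorem np1 {j : Fin n ⊕ Fin n} (e : x j ≠ 0) (h : ¬ p j.swap) : ∃ u ∈ Vn F p, ω x u ≠ 0 :=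
  ⟨bv F j.swap, fun _ hi => Pi.single_eq_of_ne (by rintro rfl; exact h hi) _,
    (om_ne _).2 (by simpa)⟩

theorem np1' (hp : ∀ j, p j.swap → p j) (hx : x ∈ Vn F p) (e : x ≠ 0) :
    ∃ u ∈ Vn F p, ω x u ≠ 0 := by
  obtain ⟨j, hj⟩ := Function.ne_iff.1 e
  exact np1 hj fun r => hj (hx j (hp j r))

theorem mv1 (hp : ∀ j, p j.swap → p j) (hx : x ∈ Vn F p) (hy : y ∈ Vn F p) (e : x ≠ 0)
    (e' : y ≠ 0) : ∃ g ∈ Fx F p, g • x = y := by
  obtain ⟨u, hu, a, b⟩ := np2 (np1' hp hx e) (np1' hp hy e')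
  have k : ∀ {x y : Fin n ⊕ Fin n → F}, x ∈ Vn F p → y ∈ Vn F p → ∀ j, p j → x j.swap = y j.swap :=
    fun hx hy j hj => by rw [hx _ (hp _ (by simpa)), hy _ (hp _ (by simpa))]
  obtain ⟨g, hg, e1⟩ := mv a (k hx hu)
  obtain ⟨g', hg', e2⟩ := mv (by rwa [om_comm, neg_ne_zero]) (k hu hy)
  exact ⟨_, mul_mem hg' hg, by rw [mul_smul, e1, e2]⟩

theorem vn_smul (hp : ∀ j, r j → p j.swap) (hg : g ∈ Fx F p) (hx : x ∈ Vn F r) : g • x ∈ Vn F r :=
  fun j hj => (coord hg (hp j hj) x).trans (hx j hj)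

end CF.Phan.Sp
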