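import Cfsg.Agent.Phan.Sp1

/-!
The two extension steps for the symplectic group.
-/

set_option autoImplicit false

namespace CF.Phan.Sp

open CF.Geom Matrix Sum

variable {F : Type*} [Field F] {n : ℕ}

/-- Long root `SL₂`. -/
@[simp] abbrev pS (k : Fin n) (j : Fin n ⊕ Fin n) : Prop := ix j ≠ k
/-- Abelian unipotent group on two consecutive indices. -/
@[simp] abbrev pM (k : Fin n) (j : Fin n ⊕ Fin n) : Prop := j.isLeft ∨ (ix j ≠ k ∧ ix j ≠ k + 1)
/-- Symplectic group on an initial segment. -/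
@[simp] abbrev pG (k : Fin n) (j : Fin n ⊕ Fin n) : Prop := k < ix j
/-- Vector stabiliser. -/
@[simp] abbrev pQ (k : Fin n) (j : Fin n ⊕ Fin n) : Prop := k < ix j ∨ j = inl k

local notation "ω" => sympBilin n F

variable {a b : Fin n} (hab : (a : ℕ) + 1 = b)
include hab

theorem exM {x y : Fin n ⊕ Fin n → F} (e : x (inr b) ≠ 0) (h1 : ∀ i, x (inr i) = y (inr i))
    (h2 : ∀ i, i ≠ a → i ≠ b → x (inl i) = y (inl i)) : ∃ m ∈ Fx F (pM a), m • x = y :=
  mv2 (inl b) (by simp) (by simp; omega) e (by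
    rintro (j | j) hj
    · exact h1 j
    · exact h2 j (by rintro rfl; simp at hj) (by rintro rfl; simp [hab] at hj))

section A

/-- Points for the first step. -/
def PA (b : Fin n) (y : Fin n ⊕ Fin n → F) : Prop := ∀ j, pQ b j → y j.swap = bv F (inr b) j.swap

/-- Adjacency for the first step. -/
def AA (b : Fin n) (x y : Fin n ⊕ Fin n → F) : Prop := ∀ c : F, x - y ≠ c • bv F (inl b)

omit hab in
theorem PA_iff {y : Fin n ⊕ Fin n → F} : PA b y ↔ ∃ g ∈ Fx F (pQ b), g • bv F (inr b) = y :=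
  ⟨fun h => mv2 (inl b) (by simp) (by simp) (by simp) fun j hj => (h j hj).symm, by
    rintro ⟨g, hg, rfl⟩ j hj
    exact coord hg (by simpa using hj) _⟩

theorem PA_add {u : Fin n ⊕ Fin n → F} (hu : u ∈ Vn F (pG a)) (c : F) :
    PA b (bv F (inr b) + u + c • bv F (inl b)) := fun j hj => by
  have : j.swap ≠ inl b := by rcases j with j | j <;> simp [Fin.ext_iff] at hj ⊢; omega
  simp [hu j.swap (by rcases j with j | j <;> simp [Fin.ext_iff] at hj ⊢ <;> omega), this]

theorem PA.dec {y : Fin n ⊕ Fin n → F} (h : PA b y) :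
    ∃ u ∈ Vn F (pG a), ∃ c : F, y = bv F (inr b) + u + c • bv F (inl b) := by
  refine ⟨y - bv F (inr b) - y (inl b) • bv F (inl b), fun j hj => ?_, y (inl b), by abel⟩
  by_cases e : j = inl b
  · simp [e]
  have := h j.swap (by rcases j with j | j <;> simp [Fin.ext_iff] at hj e ⊢ <;> omega)
  rw [swap_swap] at this
  simp [this, e]

omit hab in
theorem AA.of_ne {x y : Fin n ⊕ Fin n → F} {j : Fin n ⊕ Fin n} (e : j ≠ inl b) (h : x j ≠ y j) :
    AA b x y := fun c r => h (sub_eq_zero.1 (by simpa [e] using congrFun r j))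

theorem exM' {u : Fin n ⊕ Fin n → F} (t c : F) (e : u = t • bv F (inl a)) :
    ∃ m ∈ Fx F (pM a), m • bv F (inr b) = bv F (inr b) + u + c • bv F (inl b) :=
  exM hab (by simp) (by simp [e]) fun i h h' => by simp [e, h, h']

theorem triA {x y z : Fin n ⊕ Fin n → F} (px : PA b x) (py : PA b y) (pz : PA b z)
    (e : ω (y - x) (z - x) ≠ 0) :
    Tri (Fx F (pQ b)) (Fx F (pM a) ⊔ Fx F (pS a)) (bv F (inr b)) x y z := by
  obtain ⟨g, hg, rfl⟩ := PA_iff.1 px
  have p : ∀ {y}, PA b y → PA b (g⁻¹ • y) := fun py j hj =>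
    (coord (inv_mem hg) (by simpa using hj) _).trans (py j hj)
  obtain ⟨u, hu, c, r⟩ := (p py).dec hab
  obtain ⟨u', hu', c', r'⟩ := (p pz).dec hab
  rw [inv_smul_eq_iff] at r r'
  have ub : ∀ {u}, u ∈ Vn F (pG a) → u (inr b) = 0 := fun hu => hu _ (by simp; omega)
  rw [r, r', ← smul_sub', ← smul_sub', om_smul, add_assoc, add_assoc, add_sub_cancel_left,
    add_sub_cancel_left] at e
  replace e : ω u u' ≠ 0 := by simpa [om_comm u (bv F _), ub hu, ub hu'] using e
  obtain ⟨k, hk, s⟩ := mv1 (p := pG a) (x := bv F (inl a)) (by simp) (fun j hj => by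
    rcases j with j | j <;> simp [Pi.single_apply, Fin.ext_iff] at hj ⊢; omega) hu (by simp)
    (by rintro rfl; simp at e)
  have d : (k⁻¹ • u') (inr a) ≠ 0 := by
    rwa [← s, ← smul_inv_smul k u', om_smul, om_inl, neg_ne_zero] at e
  obtain ⟨k', hk', s'⟩ := mv2 (p := pQ a) (x := (k⁻¹ • u') (inr a) • bv F (inr a)) (y := k⁻¹ • u')
    (inl a) (by simp) (by simp) (by simpa) (by
      rintro j (hj | rfl)
      · rw [vn_smul (r := pG a) (by simp) (inv_mem hk) hu' j.swap (by simpa)]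
        rcases j with j | j <;> simp [Pi.single_apply, Fin.ext_iff] at hj ⊢; omega
      · simp)
  generalize (k⁻¹ • u') (inr a) = d' at d s'
  obtain ⟨t, ht, s''⟩ := mv (p := pS a) (x := bv F (inl a)) (y := d' • bv F (inr a)) (by simpa)
    fun j hj => by rcases j with j | j <;> simp [Pi.single_apply, Fin.ext_iff] at hj ⊢ <;> simp [hj]
  obtain ⟨m, hm, w⟩ := exM' hab 1 c (one_smul F _).symm
  obtain ⟨m', hm', w'⟩ := exM' hab 1 c' (one_smul F _).symm
  have l := mul_mem hk (Fx_mono (fun _ => .inl) hk')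
  have f1 := l (inr b) (by simp; omega)
  have f2 := l (inl b) (by simp; omega)
  refine ⟨g * (k * k'), mul_mem hg (Fx_mono (by rintro j (hj | rfl) <;> simp at * <;> omega) l), m,
    Subgroup.mem_sup_left hm, t * m', mul_mem (Subgroup.mem_sup_right ht)
      (Subgroup.mem_sup_left hm'), by rw [mul_smul, f1], ?_, ?_⟩
  · rw [r, w, mul_smul, smul_add' (k * k'), smul_add' (k * k'), smul_smul', f1, f2, mul_smul,
      hk' _ (.inr rfl), s]
  · rw [r', mul_smul t, w', smul_add' t, smul_add' t, smul_smul', s'', ht _ (by simp; omega),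
      ht _ (by simp; omega), mul_smul, smul_add' (k * k'), smul_add' (k * k'), smul_smul' _ c', f1,
      f2, mul_smul, s', smul_inv_smul]

theorem L_le : Fx F (pM a) ⊔ Fx F (pS a) ≤ Fx F fun j => pM a j ∧ pS a j :=
  sup_le (Fx_mono fun _ => And.left) (Fx_mono fun _ => And.right)

theorem adA (hF : ∃ a : F, a ≠ 0 ∧ a ≠ 1) : AD (Fx F (pQ b)) (Fx F (pG a))
    (Fx F (pM a) ⊔ Fx F (pS a)) (bv F (inr b)) (PA b) (AA b) fun m => m ∈ Fx F (pM a) ∧
      ∃ c : F, m • bv F (inr b) = bv F (inr b) + bv F (inl a) + c • bv F (inl b) := by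
  have ea : bv F (inl a) ∈ Vn F (pG a) := fun j hj => by
    rcases j with j | j <;> simp [Pi.single_apply, Fin.ext_iff] at hj ⊢; omega
  have np : ∀ {x y}, PA b x → PA b y → AA b x y → ∃ u ∈ Vn F (pG a), ω (y - x) u ≠ 0 := by
    intro x y px py h
    obtain ⟨u, hu, c, rfl⟩ := px.dec hab
    obtain ⟨u', hu', c', rfl⟩ := py.dec hab
    obtain ⟨j, hj⟩ := Function.ne_iff.1 (show u' ≠ u by
      rintro rfl; exact h (c - c') (by simp [sub_smul]))
    have : ¬ pG a j := fun r => hj ((hu' j r).trans (hu j r).symm)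
    have e : j ≠ inl b := by rintro rfl; simp at this; omega
    exact np1 (j := j) (by simpa [e, sub_eq_zero] using hj) (by simpa using this)
  have ao : ∀ {x y u}, u (inr b) = 0 → ω (x - y) u ≠ 0 → AA b x y := fun hu h c r => by
    simp [r, hu] at h
  have sy : ∀ x y : Fin n ⊕ Fin n → F, AA b x y → AA b y x := fun x y h c r =>
    h (-c) (by rw [← neg_sub, r, neg_smul])
  have h3 : ∀ x y z : Fin n ⊕ Fin n → F, ∃ w, PA b w ∧ AA b x w ∧ AA b w y ∧ AA b w z := by
    intro x y z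
    obtain ⟨s, s1, s2⟩ := avoid2 hF (x (inl a)) (y (inl a))
    obtain ⟨t, t1, -⟩ := avoid2 hF (z (inr a)) 0
    have ab : a ≠ b := by rintro rfl; omega
    exact ⟨_, PA_add hab (u := s • bv F (inl a) + t • bv F (inr a)) (fun j hj => by
      rcases j with j | j <;> simp [Pi.single_apply, Fin.ext_iff] at hj ⊢ <;> omega) 0,
      .of_ne (j := inl a) (by simpa) (by simpa using s1.symm),
      .of_ne (j := inl a) (by simpa) (by simpa using s2),
      .of_ne (j := inr a) (by simp) (by simpa [ab] using t1)⟩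
  refine ⟨fun g => ⟨fun h => ⟨Fx_mono (by rintro j (hj | rfl) <;> simp at * <;> omega) h,
    h _ (by simp; omega)⟩, fun h j hj => ?_⟩, (L_le hab).trans (Fx_mono ?_), fun _ => PA_iff,
    fun g hg x y h c r => h c ?_, sy, fun y py h => ?_, fun u hu h => ?_,
    fun y z py pz h1 h2 h3 => ?_, fun x y z _ _ _ => h3 x y z,
    fun x y w w' _ _ _ _ _ e e' => ?_⟩
  · by_cases e : j = inr b
    · exact e ▸ h.2
    exact h.1 j (by rcases j with j | j <;> simp [Fin.ext_iff] at hj e ⊢ <;> omega)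
  · rintro (j | j) hj <;> simp [Fin.ext_iff] at hj ⊢ <;> omega
  · rw [← smul_sub', ← eq_inv_smul_iff, smul_smul', inv_mem hg _ (.inr rfl)] at r
    exact r
  · obtain ⟨u, hu, c, rfl⟩ := py.dec hab
    obtain ⟨k, hk, s⟩ := mv1 (by simp) ea hu (by simp) (by
      rintro rfl; exact h (-c) (by simp))
    obtain ⟨m, hm, w⟩ := exM' hab 1 c (one_smul F _).symm
    exact ⟨k, hk, m, Subgroup.mem_sup_left hm, ⟨hm, c, w⟩, by
      rw [w, smul_add', smul_add', smul_smul', s, hk _ (by simp; omega), hk _ (by simp; omega)]⟩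
  · obtain ⟨v, hv, c, r⟩ := (PA_iff.2 ⟨u, Fx_mono (by
      rintro (j | j) hj <;> simp [Fin.ext_iff] at hj ⊢ <;> omega) (L_le hab hu), rfl⟩).dec hab
    obtain ⟨k, hk, s⟩ := mv1 (p := pS a) (x := bv F (inl a)) (y := v) (by simp) (fun j hj => by
      rcases j with j | j <;> simp [Pi.single_apply, Fin.ext_iff] at hj ⊢; omega) (fun j hj => by
        by_cases e : pG a j
        · exact hv j e
        have := coord (L_le hab hu) (j := j) (by
          rcases j with j | j <;> simp at hj e ⊢ <;> omega) (bv F (inr b))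
        rw [r] at this
        have e' : j ≠ inl b := by rintro rfl; simp at e; omega
        simpa [e'] using this) (by simp) (by
      rintro rfl; exact h (-c) (by simp [r]))
    obtain ⟨m, hm, w⟩ := exM' hab 1 c (one_smul F _).symm
    exact ⟨k, Fx_mono (fun j hj => ne_of_gt hj) hk, Subgroup.mem_sup_right hk, m,
      Subgroup.mem_sup_left hm, ⟨hm, c, w⟩, by
      rw [w, smul_add', smul_add', smul_smul', s, hk _ (by simp; omega), hk _ (by simp; omega), r]⟩
  · have p₀ : PA b (bv F (inr b)) := fun _ _ => rfl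
    by_cases e : ω (y - bv F (inr b)) (z - bv F (inr b)) = 0
    swap
    · exact .inl (triA hab p₀ py pz e)
    obtain ⟨u, hu, u1, u2, u3⟩ := np3 hF (np p₀ py h1) (np p₀ pz h3) (np py pz h2)
    have pw := PA_add hab hu 0
    rw [zero_smul, add_zero] at pw
    have e1 : ω (bv F (inr b) + u - y) (z - y) ≠ 0 := by
      rw [show bv F (inr b) + u - y = u - (y - bv F (inr b)) by abel, map_sub ω, LinearMap.sub_apply,
        show ω (y - _) (z - y) = 0 by
          rw [← sub_sub_sub_cancel_right z y (bv F (inr b)), map_sub, e, om_self, sub_zero],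
        om_comm, sub_zero]
      exact neg_ne_zero.2 u3
    have e2 : ω (bv F (inr b) + u - bv F (inr b)) (z - bv F (inr b)) ≠ 0 := by
      rwa [add_sub_cancel_left, om_comm, neg_ne_zero]
    have c : ∀ {x y : Fin n ⊕ Fin n → F}, PA b x → PA b y → (x - y) (inr b) = 0 := fun px py =>
      sub_eq_zero.2 ((px (inl b) (.inr rfl)).trans (py (inl b) (.inr rfl)).symm)
    exact .inr ⟨_, sy _ _ (ao (c pz p₀) e2), sy _ _ (ao (c pz py) e1), ao (c pz py) (by
      rwa [← sub_sub_sub_cancel_right _ z y, map_sub ω, LinearMap.sub_apply, om_self, sub_zero]),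
      triA hab py pw pz e1, triA hab p₀ py pw (by rwa [add_sub_cancel_left]), triA hab p₀ pw pz e2⟩
  · obtain ⟨c, pc, c1, c2, -⟩ := h3 x w w
    simp only [AA, not_forall, not_not] at e e'
    obtain ⟨t, e⟩ := e
    obtain ⟨t', e'⟩ := e'
    exact ⟨c, pc, c1, fun s r => c1 (t - s) (by rw [sub_smul, ← e, ← r]; abel), c2,
      fun s r => c2 (s + t') (by rw [add_smul, ← e', ← r]; abel)⟩

end A

section B

theorem L_le' : Fx F (pM a) ⊔ Fx F (pS b) ≤ Fx F fun j => pM a j ∧ pS b j :=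
  sup_le (Fx_mono fun _ => And.left) (Fx_mono fun _ => And.right)

omit hab in
theorem exS {d : F} (e : d ≠ 0) : ∃ m ∈ Fx F (pS b), m • bv F (inl b) = d • bv F (inr b) :=
  mv (by simpa) fun j hj => by
    rcases j with j | j <;> simp [Pi.single_apply, Fin.ext_iff] at hj ⊢ <;> simp [hj]

theorem orbL {y : Fin n ⊕ Fin n → F} (e : y (inr b) ≠ 0) (h : y ∈ Vn F fun j =>
    pM a j.swap ∧ pS b j) : ∃ k ∈ Fx F (pM a), ∃ m ∈ Fx F (pS b),
      (∃ d : F, d ≠ 0 ∧ m • bv F (inl b) = d • bv F (inr b)) ∧ y = k • m • bv F (inl b) := by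
  obtain ⟨m, hm, s⟩ := exS (b := b) e
  obtain ⟨k, hk, s'⟩ := exM hab (x := y (inr b) • bv F (inr b)) (y := y) (by simpa) (fun i => by
    by_cases r : i = b
    · simp [r]
    rw [h (inr i) (by simpa [Fin.ext_iff] using r)]; simp [r]) fun i r r' => by
      rw [h (inl i) (by simp [Fin.ext_iff] at r r' ⊢; omega)]; simp
  exact ⟨k, hk, m, hm, ⟨_, e, s⟩, by rw [s, s']⟩

theorem adB (hF : ∃ a : F, a ≠ 0 ∧ a ≠ 1) : AD (Fx F (pG b)) (Fx F (pQ b))
    (Fx F (pM a) ⊔ Fx F (pS b)) (bv F (inl b)) (fun y => y ∈ Vn F (pG b) ∧ y ≠ 0)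
    (fun x y => ω x y ≠ 0) fun m => m ∈ Fx F (pS b) ∧
      ∃ d : F, d ≠ 0 ∧ m • bv F (inl b) = d • bv F (inr b) := by
  have eb : bv F (inl b) ∈ Vn F (pG b) := fun j hj => by
    rcases j with j | j <;> simp [Pi.single_apply, Fin.ext_iff] at hj ⊢; omega
  have sy : ∀ x y, ω x y ≠ 0 → ω y x ≠ 0 := fun x y h => by rwa [om_comm, neg_ne_zero]
  have dec : ∀ y ∈ Vn F (pG b), ω (bv F (inl b)) y ≠ 0 → y (inr b) ≠ 0 ∧
      ∃ k ∈ Fx F (pQ b), k • y (inr b) • bv F (inr b) = y := fun y hy h =>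
    ⟨by simpa using h, mv2 (inl b) (by simp) (by simp) (by simpa using h) (by
      rintro j (hj | rfl)
      · rw [hy j.swap (by simpa)]
        rcases j with j | j <;> simp [Pi.single_apply, Fin.ext_iff] at hj ⊢; omega
      · simp)⟩
  refine ⟨fun g => ⟨fun h => ⟨Fx_mono (fun _ => .inl) h, h _ (.inr rfl)⟩, fun h j hj => ?_⟩,
    (L_le' hab).trans (Fx_mono ?_), fun y => ⟨fun h => mv1 (by simp) eb h.1 (by simp) h.2, ?_⟩,
    fun g _ x y h => by rwa [om_smul], sy, fun y py h => ?_, fun u hu h => ?_,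
    fun y z py pz h1 _ h3 => .inl ?_, fun x y z px py pz => ?_,
    fun x y w w' px pw h1 h2 h3 e e' => ?_⟩
  · exact hj.elim (h.1 j) fun e => e ▸ h.2
  · rintro (j | j) hj <;> simp at hj ⊢ <;> omega
  · rintro ⟨g, hg, rfl⟩
    exact ⟨vn_smul (by simp) hg eb, fun r => by
      simpa [r] using om_smul g (bv F (inl b)) (bv F (inr b))⟩
  · obtain ⟨e, k, hk, s⟩ := dec y py.1 h
    obtain ⟨m, hm, s'⟩ := exS (b := b) e
    exact ⟨k, hk, m, Subgroup.mem_sup_right hm, ⟨hm, _, e, s'⟩, by rw [s', s]⟩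
  · obtain ⟨k, hk, m, hm, d, s⟩ := orbL hab (by simpa using h)
      (vn_smul (by simp) (L_le' hab hu) fun j hj => by
        simp [show j ≠ inl b by rintro rfl; simp at hj])
    exact ⟨k, Fx_mono (by rintro (j | j) hj <;> simp [Fin.ext_iff] at hj ⊢; omega) hk,
      Subgroup.mem_sup_left hk, m, Subgroup.mem_sup_right hm, ⟨hm, d⟩, s⟩
  · obtain ⟨e, k, hk, s⟩ := dec y py.1 h1
    obtain ⟨m, hm, s'⟩ := exS (b := b) e
    have z1 : k⁻¹ • z ∈ Vn F (pG b) := vn_smul (fun j hj => .inl (by simpa)) (inv_mem hk) pz.1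
    have z2 : (k⁻¹ • z) (inr b) ≠ 0 := by
      rw [coord (inv_mem hk) (.inr rfl)]; simpa using h3
    obtain ⟨z, rfl⟩ : ∃ z', z = k • z' := ⟨_, (smul_inv_smul k z).symm⟩
    rw [inv_smul_smul] at z1 z2
    have z3 : z - z (inl b) • bv F (inl b) - z (inr b) • bv F (inr b) ∈ Vn F (pG a) := fun j hj => by
      by_cases r : pG b j
      · rcases j with j | j <;> simp [Pi.single_apply, Fin.ext_iff, z1 _ r] at r ⊢ <;> omega
      rcases j with j | j <;> obtain rfl : j = b := Fin.ext (by simp at r hj; omega) <;> simp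
    obtain ⟨l, hl, t, r⟩ : ∃ l ∈ Fx F (pG a), ∃ t : F, l • t • bv F (inl a) =
        z - z (inl b) • bv F (inl b) - z (inr b) • bv F (inr b) := by
      by_cases r : z - z (inl b) • bv F (inl b) - z (inr b) • bv F (inr b) = 0
      · exact ⟨1, one_mem _, 0, by simp [r]⟩
      obtain ⟨l, hl, r⟩ := mv1 (x := bv F (inl a)) (by simp) (fun j hj => by
        rcases j with j | j <;> simp [Pi.single_apply, Fin.ext_iff] at hj ⊢; omega) z3 (by simp) r
      exact ⟨l, hl, 1, by rwa [one_smul]⟩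
    have f1 := hl (inr b) (by simp; omega)
    have f2 := hl (inl b) (by simp; omega)
    obtain ⟨k', hk', m', hm', -, s''⟩ := orbL hab
      (y := t • bv F (inl a) + z (inl b) • bv F (inl b) + z (inr b) • bv F (inr b)) (by simpa)
      (by rintro (j | j) hj <;> simp [Pi.single_apply, Fin.ext_iff] at hj ⊢ <;> grind)
    refine ⟨k * l, mul_mem (Fx_mono (fun _ => .inl) hk) (Fx_mono (fun j hj => by
      simp at hj ⊢; omega) hl), m, Subgroup.mem_sup_right hm, k' * m',
      mul_mem (Subgroup.mem_sup_left hk') (Subgroup.mem_sup_right hm'),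
      by rw [mul_smul, f2, hk _ (.inr rfl)], by rw [s', mul_smul, smul_smul' l, f1, s], ?_⟩
    rw [mul_smul, mul_smul, ← s'', smul_add' l, smul_add' l, r, smul_smul', smul_smul', f1, f2]
    congr 1
    abel
  · obtain ⟨u, hu, u1, u2, u3⟩ := np3 hF (np1' (by simp) px.1 px.2) (np1' (by simp) py.1 py.2)
      (np1' (by simp) pz.1 pz.2)
    exact ⟨u, ⟨hu, by rintro rfl; simp at u1⟩, u1, sy _ _ u2, sy _ _ u3⟩
  · rw [not_not] at e e'
    rw [om_comm, neg_eq_zero] at e'
    exact ⟨w + x, ⟨add_mem pw.1 px.1, fun r => h1 (by simpa using congrArg (ω x) r)⟩,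
      by simpa using h1, by simpa [e] using h2, by simpa using h1, by simpa [e'] using h3⟩

end B

end CF.Phan.Sp
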