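import Cfsg.Agent.Phan.Sp2

/-!
The symplectic group as the universal completion of an amalgam of small subgroups.
-/

set_option autoImplicit false

namespace CF.Phan.Sp

open CF.Geom Matrix Sum

variable {F : Type*} [Field F] {n : ℕ} {H : Type*} [Group H] (hF : ∃ a : F, a ≠ 0 ∧ a ≠ 1)
include hF

theorem gen (k : ℕ) : ∀ a : Fin n, (a : ℕ) = k → ∀ P : Subgroup (SP n F),
    (∀ j : Fin n, (j : ℕ) < a → Fx F (pS j) ≤ P) → (∀ i : Fin n, (i : ℕ) < a → Fx F (pM i) ≤ P) →
    ((Fx F fun j => pS a j ∨ j = inl a) ≤ P → Fx F (pQ a) ≤ P) ∧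
      (Fx F (pS a) ≤ P → Fx F (pG a) ≤ P) := by
  induction k with
  | zero => exact fun a ha P _ _ => ⟨(Fx_mono fun j hj => hj.imp_left fun hj => by
        simp at hj ⊢; omega).trans,
      (Fx_mono fun j hj => by simp at hj ⊢; omega).trans⟩
  | succ k ih =>
    intro b hb P h1 h2
    let a : Fin n := ⟨k, by omega⟩
    have hab : (a : ℕ) + 1 = b := hb.symm
    have := (adA hab hF).gen ((ih a rfl P (fun j hj => h1 j (by omega))
      fun j hj => h2 j (by omega)).2 (h1 a (by omega))) (sup_le (h2 a (by omega)) (h1 a (by omega)))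
    exact ⟨fun _ => this, fun h => (adB hab hF).gen this (sup_le (h2 a (by omega)) h)⟩

variable {σ μ : Fin n → SP n F → H} (hσ : ∀ j, HomOn (σ j) (Fx F (pS j)))
  (SS : ∀ j l, j ≠ l → ∀ g ∈ Fx F (pS j), ∀ g' ∈ Fx F (pS l), σ j g * σ l g' = σ l g' * σ j g)
  (MM : ∀ i l : Fin n, (i : ℕ) < l → (l : ℕ) + 1 < n → ∀ g ∈ Fx F (pM i), ∀ g' ∈ Fx F (pM l),
    μ i g * μ l g' = μ l g' * μ i g)
  (MS : ∀ i j : Fin n, (i : ℕ) + 1 < n → ∃ ψ : SP n F → H, HomOn ψ (Fx F (pM i) ⊔ Fx F (pS j)) ∧
    (∀ g ∈ Fx F (pM i), ψ g = μ i g) ∧ ∀ g ∈ Fx F (pS j), ψ g = σ j g)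
include hσ SS MM MS

theorem exists_hom (k : ℕ) : ∀ a : Fin n, (a : ℕ) = k → ∃ φ : SP n F → H, HomOn φ (Fx F (pG a)) ∧
    (∀ j : Fin n, (j : ℕ) ≤ a → ∀ g ∈ Fx F (pS j), φ g = σ j g) ∧
      ∀ i : Fin n, (i : ℕ) < a → ∀ g ∈ Fx F (pM i), φ g = μ i g := by
  induction k with
  | zero => exact fun a ha => ⟨σ a, (hσ a).mono (Fx_mono fun j hj => by simp at hj ⊢; omega),
      fun j hj => by rw [show j = a from Fin.ext (by omega)]; exact fun _ _ => rfl,
      fun j hj => by omega⟩
  | succ k ih =>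
    intro b hb
    let a : Fin n := ⟨k, by omega⟩
    have hab : (a : ℕ) + 1 = b := hb.symm
    have ha : (a : ℕ) + 1 < n := hab ▸ b.2
    obtain ⟨φ, hφ, φS, φM⟩ := ih a rfl
    clear_value a
    have MS' : ∀ i j : Fin n, (i : ℕ) + 1 < n → (j : ℕ) ≠ i → (j : ℕ) ≠ i + 1 →
        ∀ g ∈ Fx F (pM i), ∀ g' ∈ Fx F (pS j), μ i g * σ j g' = σ j g' * μ i g :=
      fun i j hi e e' g hg g' hg' => by
        obtain ⟨ψ, h1, h2, h3⟩ := MS i j hi
        have l := Subgroup.mem_sup_left (T := Fx F (pS j)) hg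
        have l' := Subgroup.mem_sup_right (S := Fx F (pM i)) hg'
        rw [← h2 g hg, ← h3 g' hg', ← h1 _ l _ l', ← h1 _ l' _ l, comm hg hg' (by
          rintro (t | t) <;> simp <;> omega)]
    have SG : ∀ j : Fin n, (j : ℕ) ≤ a → Fx F (pS j) ≤ Fx F (pG a) := fun j hj =>
      Fx_mono fun t ht => by simp at ht ⊢; omega
    have MG : ∀ j : Fin n, (j : ℕ) < a → Fx F (pM j) ≤ Fx F (pG a) := fun j hj =>
      Fx_mono fun t ht => by simp at ht ⊢; omega
    obtain ⟨ψ, hψ, ψM, ψS⟩ := MS a a ha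
    obtain ⟨χ, hχ, χM, χS⟩ := MS a b ha
    have C1 : ∀ m ∈ Fx F (pM a), ∀ g ∈ Fx F (pQ a), μ a m * φ g = φ g * μ a m := fun m hm g hg =>
      ((gen hF _ a rfl (hφ.comap (Subgroup.centralizer {μ a m})) (fun j hj g hg =>
        ⟨SG j hj.le hg, by
          rintro _ rfl
          rw [φS j hj.le g hg, MS' a j ha (by omega) (by omega) m hm g hg]⟩) fun j hj g hg =>
        ⟨MG j hj hg, by
          rintro _ rfl
          rw [φM j hj g hg, MM j a hj ha g hg m hm]⟩).1 (fun g hg => by
            have g1 := Fx_mono (r := pS a) (fun _ => .inl) hg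
            have g2 : g ∈ Fx F (pM a) := Fx_mono (by
              rintro (t | t) <;> simp [Fin.ext_iff] <;> omega) hg
            refine ⟨SG a le_rfl g1, ?_⟩
            rintro _ rfl
            have l := Subgroup.mem_sup_left (T := Fx F (pS a)) g2
            have l' := Subgroup.mem_sup_left (T := Fx F (pS a)) hm
            rw [φS a le_rfl g g1, ← ψS g g1, ← ψM m hm, ← hψ _ l _ l', ← hψ _ l' _ l,
              comm hm g2 (by rintro (t | t) <;> simp)]) hg).2 _ rfl
    have C2 : ∀ m ∈ Fx F (pS b), ∀ g ∈ Fx F (pG a), σ b m * φ g = φ g * σ b m := fun m hm g hg =>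
      have s : ∀ j : Fin n, (j : ℕ) ≤ a → Fx F (pS j) ≤ hφ.comap (Subgroup.centralizer {σ b m}) :=
        fun j hj g hg => ⟨SG j hj hg, by
          rintro _ rfl
          rw [φS j hj g hg, SS j b (by rintro rfl; omega) g hg m hm]⟩
      ((gen hF _ a rfl _ (fun j hj => s j hj.le) fun j hj g hg => ⟨MG j hj hg, by
        rintro _ rfl
        rw [φM j hj g hg, MS' j b (by omega) (by omega) (by omega) g hg m hm]⟩).2 (s a le_rfl)
          hg).2 _ rfl
    obtain ⟨θ, hθ, θG, θL⟩ := (adA hab hF).ext hφ hψ (fun t ht ht' => by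
      have : t ∈ Fx F (pS a) := fun j hj => by
        by_cases e : pG a j
        exacts [ht j e, L_le hab ht' j (by simp at hj e ⊢; omega)]
      rw [φS a le_rfl t this, ψS t this]) (by
        rintro g hg m - m' - ⟨hm, c, e⟩ ⟨-, c', e'⟩ r
        rw [e, e', smul_add', smul_add', smul_smul', hg (inr b) (by simp; omega),
          hg (inl b) (by simp; omega)] at r
        have s := congrFun r (inl b)
        have ab : b ≠ a := by rintro rfl; omega
        simp only [Pi.add_apply, coord hg (j := inl b) (by simp; omega), add_right_inj] at s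
        rw [show c = c' by simpa using s, add_left_inj, add_right_inj] at r
        have q : g ∈ Fx F (pQ a) := by
          rintro j (hj | rfl)
          exacts [hg j hj, r]
        exact ⟨comm q hm (by rintro (t | t) <;> simp [Fin.ext_iff]; omega),
          by rw [ψM m hm, C1 m hm g q]⟩)
    have MQ : Fx F (pM a) ≤ Fx F (pQ b) :=
      Fx_mono (by rintro (t | t) <;> simp [Fin.ext_iff]; omega)
    have θM : ∀ m ∈ Fx F (pM a), θ m = μ a m := fun m hm => by
      have l := Subgroup.mem_sup_left (T := Fx F (pS a)) hm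
      by_cases e : AA b (bv F (inr b)) (m • bv F (inr b))
      · rw [θL m l e, ψM m hm]
      obtain ⟨m', hm', e'⟩ := exM' hab 1 0 (one_smul F _).symm
      have l' := Subgroup.mem_sup_left (T := Fx F (pS a)) hm'
      have a1 : AA b (bv F (inr b)) (m' • bv F (inr b)) :=
        .of_ne (j := inl a) (by rintro ⟨⟩; omega) (by simp [e'])
      simp only [AA, not_forall, not_not] at e
      obtain ⟨c, e⟩ := e
      have := θL _ (mul_mem l l') fun d r => (adA hab hF).inv m (MQ hm) _ _ a1 (d - c) (by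
        rw [sub_smul, ← e, ← r, mul_smul]; abel)
      rwa [hθ _ (MQ hm) _ (MQ hm'), hψ _ l _ l', θL _ l' a1, mul_left_inj, ψM m hm] at this
    obtain ⟨Φ, hΦ, ΦQ, ΦL⟩ := (adB hab hF).ext hθ hχ (fun t ht ht' => by
      have : t ∈ Fx F (pM a) := fun j hj => by
        by_cases e : pQ b j
        · exact ht j e
        by_cases e' : j = inr b
        · simp [e', hab] at hj
        exact L_le' hab ht' j ⟨hj, by
          rcases j with j | j <;> simp [Fin.ext_iff] at e e' ⊢ <;> omega⟩
      rw [θM t this, χM t this]) (by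
        rintro g hg m - m' - ⟨hm, c, c0, e⟩ ⟨-, c', -, e'⟩ r
        rw [e, e', smul_smul'] at r
        have s := congrFun r (inr b)
        simp only [Pi.smul_apply, coord hg (j := inr b) (by simp)] at s
        rw [show c' = c by simpa using s.symm] at r
        have q := ((adA hab hF).hK g).2 ⟨hg, smul_right_injective _ c0 r⟩
        exact ⟨comm q hm (by intro t; simp; omega), by rw [χS m hm, θG g q, C2 m hm g q]⟩)
    have GQ : Fx F (pG a) ≤ Fx F (pQ b) := fun g hg => (((adA hab hF).hK g).1 hg).1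
    refine ⟨Φ, hΦ, fun j hj m hm => ?_, fun j hj m hm => ?_⟩
    · by_cases e : (j : ℕ) ≤ a
      · rw [ΦQ _ (GQ (SG j e hm)), θG _ (SG j e hm), φS j e m hm]
      obtain rfl : j = b := Fin.ext (by omega)
      have l := Subgroup.mem_sup_right (S := Fx F (pM a)) hm
      by_cases e : sympBilin n F (bv F (inl j)) (m • bv F (inl j)) = 0
      swap
      · rw [ΦL m l e, χS m hm]
      obtain ⟨m', hm', e'⟩ := exS (F := F) (b := j) one_ne_zero
      have l' := Subgroup.mem_sup_right (S := Fx F (pM a)) hm'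
      have s := (adB hab hF).hL
      have := ΦL _ (mul_mem l l') fun r => by
        have z : m⁻¹ • bv F (inl j) = 0 := funext fun t => by
          by_cases u : pS j t
          · exact vn_smul (r := pS j) (by simp) (inv_mem hm)
              (fun t ht => by simp [show t ≠ inl j by rintro rfl; simp at ht]) t u
          rw [← om_smul m⁻¹, inv_smul_smul, om_comm] at e
          rw [mul_smul, e', one_smul, ← om_smul m⁻¹, inv_smul_smul, om_comm] at r
          rcases t with t | t <;> obtain rfl : t = j := Fin.ext (by simpa using u)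
          exacts [by simpa using r, by simpa using e]
        simpa [z] using om_smul m⁻¹ (bv F (inl j)) (bv F (inr j))
      rwa [hΦ _ (s l) _ (s l'), hχ _ l _ l', ΦL _ l' (by simp [e']), mul_left_inj, χS m hm] at this
    · by_cases e : (j : ℕ) < a
      · rw [ΦQ _ (GQ (MG j e hm)), θG _ (MG j e hm), φM j e m hm]
      obtain rfl : j = a := Fin.ext (by omega)
      rw [ΦQ _ (MQ hm), θM m hm]

omit hF hσ SS MM MS in
theorem exists_fun {G : Type*} [Group G] {A : Subgroup G} (f : A →* H) :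
    ∃ φ : G → H, HomOn φ A ∧ ∀ g hg, φ g = f ⟨g, hg⟩ := by
  classical
  exact ⟨fun g => if h : g ∈ A then f ⟨g, h⟩ else 1, fun x hx y hy => by
    simp only [hx, hy, mul_mem hx hy, dif_pos, ← map_mul]; rfl, fun g hg => dif_pos hg⟩

end CF.Phan.Sp
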